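/-
Direct (in)decomposability of the even part of a product of groups with sign characters
(abstract part of the analysis of Sylow 2-subgroups of alternating groups).
-/
import Mathlib
import Cfsg.Agent.Lib.Involutions2.NormalFour

set_option autoImplicit false

namespace Cfsg.Agent.Lib.SylAlt.Indec

open Subgroup

/-- Nontrivial internal direct decomposition of a group. -/
def Dec (H : Type*) [Group H] : Prop :=
  ∃ S₁ S₂ : Subgroup H, S₁ ≠ ⊥ ∧ S₂ ≠ ⊥ ∧ (∀ a ∈ S₁, ∀ b ∈ S₂, a * b = b * a) ∧ S₁ ⊓ S₂ = ⊥ ∧ S₁ ⊔ S₂ = ⊤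

lemma Dec.of_equiv {H K : Type*} [Group H] [Group K] (e : H ≃* K) (h : Dec H) : Dec K := by
  obtain ⟨S₁, S₂, h1, h2, h3, h4, h5⟩ := h
  refine ⟨S₁.map e.toMonoidHom, S₂.map e.toMonoidHom, ?_, ?_, ?_, ?_, ?_⟩
  · intro h
    exact h1 ((Subgroup.map_eq_bot_iff_of_injective _ e.injective).1 h)
  · intro h
    exact h2 ((Subgroup.map_eq_bot_iff_of_injective _ e.injective).1 h)
  · rintro _ ⟨a, ha, rfl⟩ _ ⟨b, hb, rfl⟩
    change e a * e b = e b * e a
    rw [← map_mul, ← map_mul, h3 a ha b hb]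
  · rw [← Subgroup.map_inf _ _ _ e.injective, h4, Subgroup.map_bot]
  · rw [← Subgroup.map_sup, h5, ← MonoidHom.range_eq_map]
    exact MonoidHom.range_eq_top.2 e.surjective

lemma exists_mul {H : Type*} [Group H] {X Y : Subgroup H} (hc : ∀ a ∈ X, ∀ b ∈ Y, a * b = b * a)
    (hs : X ⊔ Y = ⊤) (u : H) : ∃ x ∈ X, ∃ y ∈ Y, u = x * y := by
  have hu : u ∈ X ⊔ Y := by rw [hs]; trivial
  rw [Subgroup.sup_eq_closure] at hu
  induction hu using Subgroup.closure_induction with
  | mem a ha =>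
    rcases ha with ha | ha
    · exact ⟨a, ha, 1, one_mem _, by simp⟩
    · exact ⟨1, one_mem _, a, ha, by simp⟩
  | one => exact ⟨1, one_mem _, 1, one_mem _, by simp⟩
  | mul a b _ _ iha ihb =>
    obtain ⟨x, hx, y, hy, rfl⟩ := iha
    obtain ⟨x', hx', y', hy', rfl⟩ := ihb
    refine ⟨x * x', mul_mem hx hx', y * y', mul_mem hy hy', ?_⟩
    calc x * y * (x' * y') = x * (y * x') * y' := by group
      _ = x * (x' * y) * y' := by rw [hc x' hx' y hy]
      _ = _ := by group
  | inv a _ iha =>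
    obtain ⟨x, hx, y, hy, rfl⟩ := iha
    refine ⟨x⁻¹, inv_mem hx, y⁻¹, inv_mem hy, ?_⟩
    rw [mul_inv_rev]
    exact ((hc _ (inv_mem hx) _ (inv_mem hy))).symm

/-- A nontrivial normal subgroup of a finite `p`-group contains a nontrivial central element. -/
lemma exists_central {H : Type*} [Group H] [Finite H] {p : ℕ} [Fact p.Prime] (hH : IsPGroup p H)
    (N : Subgroup H) [N.Normal] (hN : N ≠ ⊥) : ∃ c ∈ N, c ≠ 1 ∧ ∀ h : H, c * h = h * c := by
  have h := Cfsg.Agent.Lib.Involutions2.NormalFour.inf_center_ne_bot hH N hN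
  obtain ⟨⟨c, hc⟩, hc1⟩ := (Subgroup.ne_bot_iff_exists_ne_one).1 h
  refine ⟨c, hc.1, ?_, ?_⟩
  · intro h1
    apply hc1
    exact Subtype.ext h1
  · intro g
    exact (Subgroup.mem_center_iff.1 hc.2 g).symm

/-- A finite `p`-group whose centre has at most one nontrivial element is indecomposable. -/
lemma not_dec_of_center {H : Type*} [Group H] [Finite H] {p : ℕ} [Fact p.Prime] (hH : IsPGroup p H)
    (z : H) (hz : ∀ c : H, (∀ g, c * g = g * c) → c = 1 ∨ c = z) : ¬ Dec H := by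
  rintro ⟨X, Y, hX, hY, hc, hi, hs⟩
  haveI hXn : X.Normal := by
    constructor
    intro a ha g
    obtain ⟨x, hx, y, hy, rfl⟩ := exists_mul hc hs g
    have : x * y * a * (x * y)⁻¹ = x * (y * a * y⁻¹) * x⁻¹ := by group
    rw [this, ← hc a ha y hy]
    have : a * y * y⁻¹ = a := by group
    rw [this]
    exact mul_mem (mul_mem hx ha) (inv_mem hx)
  haveI hYn : Y.Normal := by
    constructor
    intro a ha g
    obtain ⟨x, hx, y, hy, rfl⟩ := exists_mul hc hs g
    have : x * y * a * (x * y)⁻¹ = x * (y * a * y⁻¹) * x⁻¹ := by group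
    have hb := mul_mem (mul_mem hy ha) (inv_mem hy)
    rw [this, hc x hx _ hb]
    have e : y * a * y⁻¹ * x * x⁻¹ = y * a * y⁻¹ := by group
    rw [e]
    exact hb
  obtain ⟨c, hcX, hc1, hcc⟩ := exists_central hH X hX
  obtain ⟨d, hdY, hd1, hdc⟩ := exists_central hH Y hY
  have e1 := (hz c hcc).resolve_left hc1
  have e2 := (hz d hdc).resolve_left hd1
  have : z ∈ X ⊓ Y := ⟨e1 ▸ hcX, e2 ▸ hdY⟩
  rw [hi, Subgroup.mem_bot] at this
  exact hc1 (e1.trans this)

/-- A group of order four with two different involutions decomposes. -/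
lemma dec_of_card_four {H : Type*} [Group H] [Finite H] (hH : Nat.card H = 4) (y z : H) (hy : y ≠ 1) (hz : z ≠ 1) (hyz : y ≠ z)
    (hy2 : y * y = 1) (hz2 : z * z = 1) : Dec H := by
  haveI : Fact (Nat.Prime 2) := ⟨Nat.prime_two⟩
  have hp : IsPGroup 2 H := IsPGroup.of_card (n := 2) (by simpa using hH)
  haveI hcomm : IsMulCommutative H := IsPGroup.isMulCommutative_of_card_eq_prime_sq (p := 2) (by simpa using hH)
  have hcc : ∀ a b : H, a * b = b * a := fun a b => mul_comm' a b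
  have my : ∀ a ∈ Subgroup.zpowers y, a = 1 ∨ a = y := by
    rintro _ ⟨k, rfl⟩
    have hy2' : y ^ (2 : ℤ) = 1 := by rw [zpow_two]; exact hy2
    rcases Int.emod_two_eq_zero_or_one k with h | h
    · left
      change y ^ k = 1
      rw [← Int.emod_add_mul_ediv k 2, h, zero_add, zpow_mul, hy2', one_zpow]
    · right
      change y ^ k = y
      rw [← Int.emod_add_mul_ediv k 2, h, zpow_add, zpow_mul, hy2', one_zpow, mul_one, zpow_one]
  have mz : ∀ a ∈ Subgroup.zpowers z, a = 1 ∨ a = z := by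
    rintro _ ⟨k, rfl⟩
    have hy2' : z ^ (2 : ℤ) = 1 := by rw [zpow_two]; exact hz2
    rcases Int.emod_two_eq_zero_or_one k with h | h
    · left
      change z ^ k = 1
      rw [← Int.emod_add_mul_ediv k 2, h, zero_add, zpow_mul, hy2', one_zpow]
    · right
      change z ^ k = z
      rw [← Int.emod_add_mul_ediv k 2, h, zpow_add, zpow_mul, hy2', one_zpow, mul_one, zpow_one]
  refine ⟨Subgroup.zpowers y, Subgroup.zpowers z, ?_, ?_, ?_, ?_, ?_⟩
  · simpa using hy
  · simpa using hz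
  · intro a _ b _
    exact hcc a b
  · rw [eq_bot_iff]
    rintro a ⟨ha1, ha2⟩
    rcases my a ha1 with rfl | rfl
    · exact one_mem _
    · rcases mz _ ha2 with h | h
      · exact absurd h hy
      · exact absurd h hyz
  · have hd := Subgroup.card_dvd_of_le (le_sup_left : Subgroup.zpowers y ≤ Subgroup.zpowers y ⊔ Subgroup.zpowers z)
    have hc : Nat.card ↥(Subgroup.zpowers y) = 2 := by
      rw [Nat.card_zpowers]
      exact orderOf_eq_prime (by rw [pow_two]; exact hy2) hy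
    have hd2 : Nat.card ↥(Subgroup.zpowers y ⊔ Subgroup.zpowers z) ∣ 4 := by
      rw [← hH]
      exact Subgroup.card_subgroup_dvd_card _
    rw [hc] at hd
    have hle : Subgroup.zpowers y < Subgroup.zpowers y ⊔ Subgroup.zpowers z := by
      refine lt_of_le_of_ne le_sup_left ?_
      intro h
      have : z ∈ Subgroup.zpowers y := by
        rw [h]
        exact (le_sup_right : Subgroup.zpowers z ≤ _) (Subgroup.mem_zpowers z)
      rcases my z this with h | h
      · exact hz h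
      · exact hyz h.symm
    have hlt : 2 < Nat.card ↥(Subgroup.zpowers y ⊔ Subgroup.zpowers z) := by
      by_contra hcon
      exact hle.ne (Subgroup.eq_of_le_of_card_ge hle.le (by rw [hc]; omega))
    have h4 : Nat.card ↥(Subgroup.zpowers y ⊔ Subgroup.zpowers z) = 4 := by
      obtain ⟨k, hk⟩ := hd
      have hk' := Nat.le_of_dvd (by norm_num) hd2
      interval_cases hh : Nat.card ↥(Subgroup.zpowers y ⊔ Subgroup.zpowers z) <;> omega
    exact Subgroup.eq_top_of_card_eq _ (by rw [h4, hH])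

/-- The data of a factor. -/
structure Fac {W : Type} [Group W] (s : W →* ℤˣ) (z t y w : W) : Prop where
  z_ne : z ≠ 1
  z_central : ∀ g, z * g = g * z
  z_sign : s z = 1
  center : ∀ c, (∀ g, c * g = g * c) → c = 1 ∨ c = z
  t_sign : s t = -1
  cent : ∀ c, (∀ e, s e = 1 → c * e = e * c) → s c = 1
  y_sign : s y = 1
  y_comm : ∀ g, y * g * y⁻¹ * g⁻¹ = 1 ∨ y * g * y⁻¹ * g⁻¹ = z
  y_w : y * w * y⁻¹ * w⁻¹ = z

section family

variable {I : Type} [Fintype I] [DecidableEq I] {W : I → Type} [∀ i, Group (W i)] (s : ∀ i, W i →* ℤˣ)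

/-- The total sign. -/
def tot : (∀ i, W i) →* ℤˣ where
  toFun x := ∏ i, s i (x i)
  map_one' := by simp
  map_mul' x y := by simp [Finset.prod_mul_distrib]

lemma tot_apply (x : ∀ i, W i) : tot s x = ∏ i, s i (x i) := rfl

lemma tot_single (i : I) (u : W i) : tot s (Pi.mulSingle i u) = s i u := by
  rw [tot_apply, Finset.prod_eq_single i]
  · simp
  · intro k _ hk
    simp [Pi.mulSingle_eq_of_ne hk]
  · simp

/-- The even part. -/
abbrev Ev := (tot s).ker

lemma tot_eq_of_trivial {x : ∀ i, W i} (i : I) (hx : ∀ k, k ≠ i → s k (x k) = 1) : tot s x = s i (x i) := by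
  rw [tot_apply, Finset.prod_eq_single i]
  · intro k _ hk
    exact hx k hk
  · simp

/-- A single even coordinate. -/
def sng (i : I) (u : W i) (hu : s i u = 1) : Ev s :=
  ⟨Pi.mulSingle i u, by rw [MonoidHom.mem_ker, tot_single, hu]⟩

@[simp] lemma sng_same (i : I) (u : W i) (hu : s i u = 1) : (sng s i u hu).1 i = u := by simp [sng]

lemma sng_ne (i : I) (u : W i) (hu : s i u = 1) {k : I} (hk : k ≠ i) : (sng s i u hu).1 k = 1 := by
  simp [sng, Pi.mulSingle_eq_of_ne hk]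

/-- Elements of `Ev` concentrated on a coordinate. -/
def Loc (i : I) : Subgroup (Ev s) where
  carrier := {u | ∀ k, k ≠ i → u.1 k = 1}
  one_mem' := fun k _ => rfl
  mul_mem' := by
    intro a b ha hb k hk
    change a.1 k * b.1 k = 1
    rw [ha k hk, hb k hk, one_mul]
  inv_mem' := by
    intro a ha k hk
    change (a.1 k)⁻¹ = 1
    rw [ha k hk, inv_one]

instance Loc_normal (i : I) : (Loc s i).Normal := by
  constructor
  intro a ha g k hk
  change g.1 k * a.1 k * (g.1 k)⁻¹ = 1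
  rw [ha k hk]
  group

lemma sng_mem_Loc (i : I) (u : W i) (hu : s i u = 1) : sng s i u hu ∈ Loc s i :=
  fun _ hk => sng_ne s i u hu hk

lemma eq_sng_of_mem_Loc {i : I} {u : Ev s} (hu : u ∈ Loc s i) : ∃ h, u = sng s i (u.1 i) h := by
  have h : s i (u.1 i) = 1 := by
    have := tot_eq_of_trivial s (x := u.1) i (fun k hk => by rw [hu k hk, map_one])
    rw [← this]
    exact u.2
  refine ⟨h, Subtype.ext (funext fun k => ?_)⟩
  by_cases hk : k = i
  · subst hk
    simp
  · rw [sng_ne s i _ h hk, hu k hk]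

variable {s} {z t y w : ∀ i, W i}

/-- lifting a coordinate. -/
lemma exists_lift (ht : ∀ i, s i (t i) = -1) (hI : ∀ i : I, ∃ l, l ≠ i) (i : I) (g : W i) :
    ∃ h : Ev s, h.1 i = g := by
  rcases Int.units_eq_one_or (s i g) with hg | hg
  · exact ⟨sng s i g hg, by simp⟩
  · obtain ⟨l, hl⟩ := hI i
    refine ⟨⟨Pi.mulSingle i g * Pi.mulSingle l (t l), ?_⟩, ?_⟩
    · rw [MonoidHom.mem_ker, map_mul, tot_single, tot_single, hg, ht l]
      rfl
    · simp [Pi.mulSingle_eq_of_ne hl.symm]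

/-- central elements have central coordinates. -/
lemma central_coord (ht : ∀ i, s i (t i) = -1) (hI : ∀ i : I, ∃ l, l ≠ i) {c : Ev s}
    (hc : ∀ g : Ev s, c * g = g * c) (i : I) (g : W i) : c.1 i * g = g * c.1 i := by
  obtain ⟨h, rfl⟩ := exists_lift ht hI i g
  have := congrArg (fun u : Ev s => u.1 i) (hc h)
  exact this

lemma isPGroup_pi (hp : ∀ i, IsPGroup 2 (W i)) : IsPGroup 2 (∀ i, W i) := by
  intro x
  choose k hk using fun i => hp i (x i)
  refine ⟨Finset.univ.sup k, funext fun i => ?_⟩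
  have hle : k i ≤ Finset.univ.sup k := Finset.le_sup (Finset.mem_univ i)
  obtain ⟨m, hm⟩ := Nat.exists_eq_add_of_le hle
  change x i ^ (2 ^ Finset.univ.sup k) = 1
  rw [hm, pow_add, pow_mul, hk i, one_pow]

lemma isPGroup_ev (hp : ∀ i, IsPGroup 2 (W i)) : IsPGroup 2 (Ev s) :=
  (isPGroup_pi hp).to_subgroup _

lemma normal_left {H : Type*} [Group H] {X Y : Subgroup H} (hc : ∀ a ∈ X, ∀ b ∈ Y, a * b = b * a)
    (hs : X ⊔ Y = ⊤) : X.Normal := by
  constructor
  intro a ha g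
  obtain ⟨x, hx, y, hy, rfl⟩ := exists_mul hc hs g
  have : x * y * a * (x * y)⁻¹ = x * (y * a * y⁻¹) * x⁻¹ := by group
  rw [this, ← hc a ha y hy]
  have : a * y * y⁻¹ = a := by group
  rw [this]
  exact mul_mem (mul_mem hx ha) (inv_mem hx)

section main

variable [Finite I] [∀ i, Finite (W i)]

/-- The elements `z̃ i`. -/
def zt (hF : ∀ i, Fac (s i) (z i) (t i) (y i) (w i)) (i : I) : Ev s := sng s i (z i) (hF i).z_sign

variable (hF : ∀ i, Fac (s i) (z i) (t i) (y i) (w i)) (hI : ∀ i : I, ∃ l, l ≠ i)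

include hF in
lemma zt_ne (i : I) : zt hF i ≠ 1 := by
  intro h
  have := congrArg (fun u : Ev s => u.1 i) h
  simp only [zt, sng_same] at this
  exact (hF i).z_ne this

include hF in
/-- central coordinates are `1` or `z`. -/
lemma coord_of_central (hI : ∀ i : I, ∃ l, l ≠ i) {c : Ev s} (hc : ∀ g : Ev s, c * g = g * c) (i : I) :
    c.1 i = 1 ∨ c.1 i = z i :=
  (hF i).center _ (central_coord (fun i => (hF i).t_sign) hI hc i)

include hF in
/-- Every `z̃ i` lies in one of the factors. -/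
lemma zt_mem (hI : ∀ i : I, ∃ l, l ≠ i) {X Y : Subgroup (Ev s)} (hc : ∀ a ∈ X, ∀ b ∈ Y, a * b = b * a)
    (hs : X ⊔ Y = ⊤) (i : I) : zt hF i ∈ X ∨ zt hF i ∈ Y := by
  set yy := sng s i (y i) (hF i).y_sign with hyy
  have key : ∀ g : Ev s, yy * g * yy⁻¹ * g⁻¹ = 1 ∨ yy * g * yy⁻¹ * g⁻¹ = zt hF i := by
    intro g
    rcases (hF i).y_comm (g.1 i) with h | h
    · left
      apply Subtype.ext
      funext k
      by_cases hk : k = i
      · subst hk
        simpa [yy] using h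
      · have : yy.1 k = 1 := sng_ne s i _ _ hk
        change yy.1 k * g.1 k * (yy.1 k)⁻¹ * (g.1 k)⁻¹ = 1
        rw [this]
        group
    · right
      apply Subtype.ext
      funext k
      by_cases hk : k = i
      · subst hk
        simpa [yy, zt] using h
      · have e1 : yy.1 k = 1 := sng_ne s i _ _ hk
        have e2 : (zt hF i).1 k = 1 := sng_ne s i _ _ hk
        rw [e2]
        change yy.1 k * g.1 k * (yy.1 k)⁻¹ * (g.1 k)⁻¹ = 1
        rw [e1]
        group
  obtain ⟨g, hg⟩ := exists_lift (fun i => (hF i).t_sign) hI i (w i)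
  have hgz : yy * g * yy⁻¹ * g⁻¹ = zt hF i := by
    apply Subtype.ext
    funext k
    by_cases hk : k = i
    · subst hk
      have := (hF k).y_w
      change yy.1 k * g.1 k * (yy.1 k)⁻¹ * (g.1 k)⁻¹ = (zt hF k).1 k
      rw [hg]
      simpa [yy, zt] using this
    · have e1 : yy.1 k = 1 := sng_ne s i _ _ hk
      have e2 : (zt hF i).1 k = 1 := sng_ne s i _ _ hk
      rw [e2]
      change yy.1 k * g.1 k * (yy.1 k)⁻¹ * (g.1 k)⁻¹ = 1
      rw [e1]
      group
  obtain ⟨x₀, hx₀, y₀, hy₀, hyy0⟩ := exists_mul hc hs yy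
  obtain ⟨x₁, hx₁, y₁, hy₁, hg1⟩ := exists_mul hc hs g
  have hp : yy * x₁ * yy⁻¹ * x₁⁻¹ ∈ X := by
    have e : yy * x₁ * yy⁻¹ * x₁⁻¹ = x₀ * x₁ * x₀⁻¹ * x₁⁻¹ := by
      rw [hyy0]
      have h1 : y₀ * x₁ = x₁ * y₀ := (hc x₁ hx₁ y₀ hy₀).symm
      calc x₀ * y₀ * x₁ * (x₀ * y₀)⁻¹ * x₁⁻¹ = x₀ * (y₀ * x₁) * y₀⁻¹ * x₀⁻¹ * x₁⁻¹ := by group
        _ = x₀ * (x₁ * y₀) * y₀⁻¹ * x₀⁻¹ * x₁⁻¹ := by rw [h1]
        _ = _ := by group
    rw [e]
    exact mul_mem (mul_mem (mul_mem hx₀ hx₁) (inv_mem hx₀)) (inv_mem hx₁)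
  have hq : yy * y₁ * yy⁻¹ * y₁⁻¹ ∈ Y := by
    have e : yy * y₁ * yy⁻¹ * y₁⁻¹ = y₀ * y₁ * y₀⁻¹ * y₁⁻¹ := by
      rw [hyy0]
      have h1 : x₀ * (y₀ * y₁ * y₀⁻¹) = (y₀ * y₁ * y₀⁻¹) * x₀ :=
        hc x₀ hx₀ _ (mul_mem (mul_mem hy₀ hy₁) (inv_mem hy₀))
      calc x₀ * y₀ * y₁ * (x₀ * y₀)⁻¹ * y₁⁻¹ = (x₀ * (y₀ * y₁ * y₀⁻¹)) * x₀⁻¹ * y₁⁻¹ := by group
        _ = ((y₀ * y₁ * y₀⁻¹) * x₀) * x₀⁻¹ * y₁⁻¹ := by rw [h1]
        _ = _ := by group
    rw [e]
    exact mul_mem (mul_mem (mul_mem hy₀ hy₁) (inv_mem hy₀)) (inv_mem hy₁)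
  have hpq : (yy * x₁ * yy⁻¹ * x₁⁻¹) * (yy * y₁ * yy⁻¹ * y₁⁻¹) = zt hF i := by
    rw [← hgz, hg1]
    set q := yy * y₁ * yy⁻¹ * y₁⁻¹ with hqq
    have h1 : x₁ * q = q * x₁ := hc x₁ hx₁ q hq
    have h2 : x₁⁻¹ * q = q * x₁⁻¹ := hc _ (inv_mem hx₁) q hq
    calc yy * x₁ * yy⁻¹ * x₁⁻¹ * q = yy * x₁ * yy⁻¹ * (x₁⁻¹ * q) := by group
      _ = yy * x₁ * yy⁻¹ * (q * x₁⁻¹) := by rw [h2]
      _ = _ := by rw [hqq]; group
  rcases key x₁ with h | h
  · right
    rw [h, one_mul] at hpq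
    rwa [← hpq]
  · left
    rwa [← h]

include hF in
/-- If all `z̃ i` lie in `X`, so does any central element. -/
lemma central_mem (hI : ∀ i : I, ∃ l, l ≠ i) {X : Subgroup (Ev s)} (hX : ∀ i, zt hF i ∈ X) {c : Ev s}
    (hc : ∀ g : Ev s, c * g = g * c) : c ∈ X := by
  classical
  have key : ∀ T : Finset I, ∃ u ∈ X, ∀ k, u.1 k = if k ∈ T then c.1 k else 1 := by
    intro T
    induction T using Finset.induction_on with
    | empty => exact ⟨1, one_mem _, fun k => by simp⟩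
    | insert a T ha ih =>
      obtain ⟨u, hu, huk⟩ := ih
      rcases coord_of_central hF hI hc a with h | h
      · refine ⟨u, hu, fun k => ?_⟩
        rw [huk k]
        by_cases hk : k = a
        · subst hk
          simp [ha, h]
        · simp [hk]
      · refine ⟨u * zt hF a, mul_mem hu (hX a), fun k => ?_⟩
        change u.1 k * (zt hF a).1 k = _
        rw [huk k]
        by_cases hk : k = a
        · subst hk
          simp [ha, h, zt]
        · have e2 : (zt hF a).1 k = 1 := sng_ne s a _ _ hk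
          rw [e2, mul_one]
          simp [hk]
  obtain ⟨u, hu, huk⟩ := key Finset.univ
  have : u = c := Subtype.ext (funext fun k => by simpa using huk k)
  rwa [← this]

include hF in
/-- Concentrated elements split up to a central element. -/
lemma loc_split (hp : ∀ i, IsPGroup 2 (W i)) (hI : ∀ i : I, ∃ l, l ≠ i) {A B : Subgroup (Ev s)}
    (hc : ∀ a ∈ A, ∀ b ∈ B, a * b = b * a) (hi : A ⊓ B = ⊥) (hs : A ⊔ B = ⊤) {i : I} (hA : zt hF i ∈ A)
    {u : Ev s} (hu : u ∈ Loc s i) : ∃ a ∈ A, ∃ c ∈ B, u = a * c ∧ ∀ g : Ev s, c * g = g * c := by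
  haveI : Fact (Nat.Prime 2) := ⟨Nat.prime_two⟩
  have hc' : ∀ a ∈ B, ∀ b ∈ A, a * b = b * a := fun a ha b hb => (hc b hb a ha).symm
  haveI hBn : B.Normal := normal_left hc' (by rwa [sup_comm])
  obtain ⟨x, hx, b, hb, rfl⟩ := exists_mul hc hs u
  refine ⟨x, hx, b, hb, rfl, ?_⟩
  by_contra hcon
  push Not at hcon
  obtain ⟨g, hg⟩ := hcon
  obtain ⟨x₁, hx₁, y₁, hy₁, rfl⟩ := exists_mul hc hs g
  have hne : b * y₁ ≠ y₁ * b := by
    intro h
    apply hg
    have h1 : b * x₁ = x₁ * b := (hc x₁ hx₁ b hb).symm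
    calc b * (x₁ * y₁) = (b * x₁) * y₁ := by group
      _ = x₁ * (b * y₁) := by rw [h1]; group
      _ = x₁ * (y₁ * b) := by rw [h]
      _ = _ := by group
  set v := (x * b) * y₁ * (x * b)⁻¹ * y₁⁻¹ with hv
  have hv1 : v = b * y₁ * b⁻¹ * y₁⁻¹ := by
    have h1 : x * (b * y₁ * b⁻¹) = (b * y₁ * b⁻¹) * x := hc x hx _ (mul_mem (mul_mem hb hy₁) (inv_mem hb))
    calc v = (x * (b * y₁ * b⁻¹)) * x⁻¹ * y₁⁻¹ := by rw [hv]; group
      _ = ((b * y₁ * b⁻¹) * x) * x⁻¹ * y₁⁻¹ := by rw [h1]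
      _ = _ := by group
  have hvB : v ∈ B := by
    rw [hv1]
    exact mul_mem (mul_mem (mul_mem hb hy₁) (inv_mem hb)) (inv_mem hy₁)
  have hvne : v ≠ 1 := by
    rw [hv1]
    intro h
    apply hne
    have : b * y₁ * b⁻¹ = y₁ := by
      calc b * y₁ * b⁻¹ = (b * y₁ * b⁻¹ * y₁⁻¹) * y₁ := by group
        _ = y₁ := by rw [h, one_mul]
    calc b * y₁ = (b * y₁ * b⁻¹) * b := by group
      _ = _ := by rw [this]
  have hvL : v ∈ Loc s i := by
    have h1 : y₁ * (x * b)⁻¹ * y₁⁻¹ ∈ Loc s i := (Loc_normal s i).conj_mem _ (inv_mem hu) _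
    have : v = (x * b) * (y₁ * (x * b)⁻¹ * y₁⁻¹) := by rw [hv]; group
    rw [this]
    exact mul_mem hu h1
  haveI : (B ⊓ Loc s i).Normal := inferInstance
  have hN : B ⊓ Loc s i ≠ ⊥ := by
    intro h
    have : v ∈ B ⊓ Loc s i := ⟨hvB, hvL⟩
    rw [h, Subgroup.mem_bot] at this
    exact hvne this
  obtain ⟨c, ⟨hcB, hcL⟩, hc1, hcc⟩ := exists_central (isPGroup_ev hp) _ hN
  obtain ⟨h0, hc0⟩ := eq_sng_of_mem_Loc s hcL
  rcases coord_of_central hF hI hcc i with h | h
  · apply hc1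
    apply Subtype.ext
    funext k
    by_cases hk : k = i
    · subst hk
      exact h
    · exact hcL k hk
  · have hce : c = zt hF i := by
      apply Subtype.ext
      funext k
      by_cases hk : k = i
      · subst hk
        simp [zt, h]
      · rw [hcL k hk]
        exact (sng_ne s i _ _ hk).symm
    have : zt hF i ∈ A ⊓ B := ⟨hA, hce ▸ hcB⟩
    rw [hi, Subgroup.mem_bot] at this
    exact zt_ne hF i this

include hF in
/-- The even part of a product of at least two factors is directly indecomposable. -/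
theorem not_dec_family (hp : ∀ i, IsPGroup 2 (W i)) (hI : ∀ i : I, ∃ l, l ≠ i) : ¬ Dec (Ev s) := by
  haveI : Fact (Nat.Prime 2) := ⟨Nat.prime_two⟩
  rintro ⟨X, Y, hX, hY, hc, hi, hs⟩
  have hc' : ∀ a ∈ Y, ∀ b ∈ X, a * b = b * a := fun a ha b hb => (hc b hb a ha).symm
  have hs' : Y ⊔ X = ⊤ := by rwa [sup_comm]
  have hi' : Y ⊓ X = ⊥ := by rwa [inf_comm]
  haveI hXn : X.Normal := normal_left hc hs
  haveI hYn : Y.Normal := normal_left hc' hs'
  have hpE := isPGroup_ev (s := s) hp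
  -- both factors contain some `z̃`
  have h1 : ∃ i, zt hF i ∈ X := by
    by_contra hcon
    push Not at hcon
    have hall : ∀ i, zt hF i ∈ Y := fun i => (zt_mem hF hI hc hs i).resolve_left (hcon i)
    obtain ⟨c, hcX, hc1, hcc⟩ := exists_central hpE X hX
    have : c ∈ X ⊓ Y := ⟨hcX, central_mem hF hI hall hcc⟩
    rw [hi, Subgroup.mem_bot] at this
    exact hc1 this
  have h2 : ∃ i, zt hF i ∈ Y := by
    by_contra hcon
    push Not at hcon
    have hall : ∀ i, zt hF i ∈ X := fun i => (zt_mem hF hI hc hs i).resolve_right (hcon i)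
    obtain ⟨c, hcX, hc1, hcc⟩ := exists_central hpE Y hY
    have : c ∈ X ⊓ Y := ⟨central_mem hF hI hall hcc, hcX⟩
    rw [hi, Subgroup.mem_bot] at this
    exact hc1 this
  obtain ⟨i, hiX⟩ := h1
  obtain ⟨j, hjY⟩ := h2
  have hij : i ≠ j := by
    rintro rfl
    have : zt hF i ∈ X ⊓ Y := ⟨hiX, hjY⟩
    rw [hi, Subgroup.mem_bot] at this
    exact zt_ne hF i this
  have hg1 : Pi.mulSingle i (t i) * Pi.mulSingle j (t j) ∈ (tot s).ker := by
    rw [MonoidHom.mem_ker, map_mul, tot_single, tot_single, (hF i).t_sign, (hF j).t_sign]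
    rfl
  set g : Ev s := ⟨_, hg1⟩ with hg
  obtain ⟨x, hx, b, hb, hgxb⟩ := exists_mul hc hs g
  have hgi : g.1 i = t i := by
    simp [hg, Pi.mulSingle_eq_of_ne hij]
  have hgk : ∀ k, k ≠ i → k ≠ j → g.1 k = 1 := by
    intro k h1 h2
    simp [hg, Pi.mulSingle_eq_of_ne h1, Pi.mulSingle_eq_of_ne h2]
  -- `b` commutes with concentrated elements of `X`-type coordinates
  have hbcomm : ∀ k, zt hF k ∈ X → ∀ h ∈ Loc s k, b * h = h * b := by
    intro k hk h hh
    obtain ⟨a, ha, c, hcY, rfl, hcc⟩ := loc_split hF hp hI hc hi hs hk hh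
    have h1 : a * b = b * a := hc a ha b hb
    rw [← mul_assoc, ← h1, mul_assoc, ← hcc b, mul_assoc]
  have hs1 : ∀ k, k ≠ i → s k (x.1 k) = 1 := by
    intro k hki
    apply (hF k).cent
    intro e he
    set h := sng s k e he with hh
    have hhL : h ∈ Loc s k := sng_mem_Loc s k e he
    have hxh : x * h = h * x := by
      rcases zt_mem hF hI hc hs k with hk | hk
      · -- `k` of type `X`: `g` and `b` commute with `h`
        have hkj : k ≠ j := by
          rintro rfl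
          have : zt hF k ∈ X ⊓ Y := ⟨hk, hjY⟩
          rw [hi, Subgroup.mem_bot] at this
          exact zt_ne hF k this
        have hbh := hbcomm k hk h hhL
        have hgh : g * h = h * g := by
          apply Subtype.ext
          funext l
          change g.1 l * h.1 l = h.1 l * g.1 l
          by_cases hl : l = k
          · subst hl
            rw [hgk l hki hkj, one_mul, mul_one]
          · rw [hhL l hl, mul_one, one_mul]
        have hxe : x = g * b⁻¹ := by rw [hgxb]; group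
        have hbh' : b⁻¹ * h = h * b⁻¹ := by
          calc b⁻¹ * h = b⁻¹ * (h * b) * b⁻¹ := by group
            _ = b⁻¹ * (b * h) * b⁻¹ := by rw [hbh]
            _ = _ := by group
        rw [hxe]
        calc g * b⁻¹ * h = g * (b⁻¹ * h) := by group
          _ = g * (h * b⁻¹) := by rw [hbh']
          _ = (g * h) * b⁻¹ := by group
          _ = (h * g) * b⁻¹ := by rw [hgh]
          _ = _ := by group
      · obtain ⟨a, ha, c, hcX, hae, hcc⟩ := loc_split hF hp hI hc' hi' hs' hk hhL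
        rw [hae]
        have h1 : x * a = a * x := hc x hx a ha
        rw [← mul_assoc, h1, mul_assoc, ← hcc x, mul_assoc]
    have := congrArg (fun u : Ev s => u.1 k) hxh
    simpa [hh] using this
  have hsi : s i (x.1 i) = -1 := by
    have h0 : s i ((t i)⁻¹ * x.1 i) = 1 := by
      apply (hF i).cent
      intro e he
      set h := sng s i e he with hh
      have hhL : h ∈ Loc s i := sng_mem_Loc s i e he
      have hbh := hbcomm i hiX h hhL
      have e1 : g * h = x * h * b := by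
        rw [hgxb]
        calc x * b * h = x * (b * h) := by group
          _ = x * (h * b) := by rw [hbh]
          _ = _ := by group
      have e2 : h * g = h * x * b := by
        rw [hgxb]
        group
      have e3 : g * h * g⁻¹ = x * h * x⁻¹ := by
        rw [e1, hgxb]
        group
      have := congrArg (fun u : Ev s => u.1 i) e3
      have e4 : t i * e * (t i)⁻¹ = x.1 i * e * (x.1 i)⁻¹ := by
        have h5 : (g * h * g⁻¹).1 i = g.1 i * h.1 i * (g.1 i)⁻¹ := rfl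
        have h6 : (x * h * x⁻¹).1 i = x.1 i * h.1 i * (x.1 i)⁻¹ := rfl
        have h7 : h.1 i = e := by simp [hh]
        have h8 : (g * h * g⁻¹).1 i = (x * h * x⁻¹).1 i := this
        rw [h5, h6, h7, hgi] at h8
        exact h8
      calc (t i)⁻¹ * x.1 i * e = (t i)⁻¹ * (x.1 i * e * (x.1 i)⁻¹) * x.1 i := by group
        _ = (t i)⁻¹ * (t i * e * (t i)⁻¹) * x.1 i := by rw [e4]
        _ = _ := by group
    rw [map_mul, map_inv, (hF i).t_sign] at h0
    rcases Int.units_eq_one_or (s i (x.1 i)) with e | e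
    · rw [e] at h0
      exact absurd h0 (by decide)
    · exact e
  have htot := tot_eq_of_trivial s (x := x.1) i hs1
  have hx1 : tot s x.1 = 1 := x.2
  rw [hx1, hsi] at htot
  exact absurd htot (by decide)

end main

section small

variable [∀ i, Finite (W i)]

/-- A single factor. -/
theorem not_dec_single (hp : ∀ i, IsPGroup 2 (W i)) (i₀ : I) (hI : ∀ k : I, k = i₀) (z₀ : W i₀) (hz₀ : s i₀ z₀ = 1)
    (hP : ∀ c : W i₀, (∀ e, s i₀ e = 1 → c * e = e * c) → c = 1 ∨ c = z₀) : ¬ Dec (Ev s) := by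
  haveI : Fact (Nat.Prime 2) := ⟨Nat.prime_two⟩
  refine not_dec_of_center (isPGroup_ev hp) (sng s i₀ z₀ hz₀) ?_
  intro c hc
  have hcc : c.1 i₀ = 1 ∨ c.1 i₀ = z₀ := by
    apply hP
    intro e he
    have := congrArg (fun u : Ev s => u.1 i₀) (hc (sng s i₀ e he))
    simpa using this
  rcases hcc with h | h
  · left
    apply Subtype.ext
    funext k
    rw [hI k]
    exact h
  · right
    apply Subtype.ext
    funext k
    rw [hI k]
    simp [h]

/-- Two factors, one of them of order two. -/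
theorem not_dec_two (hp : ∀ i, IsPGroup 2 (W i)) (i₀ i₁ : I) (h01 : i₀ ≠ i₁) (hI : ∀ k : I, k = i₀ ∨ k = i₁)
    (hinj : ∀ c : W i₀, s i₀ c = 1 → c = 1) (ht : ∀ i, s i (t i) = -1) (z₁ : W i₁) (hz₁ : s i₁ z₁ = 1)
    (hZ : ∀ c : W i₁, (∀ g, c * g = g * c) → c = 1 ∨ c = z₁) : ¬ Dec (Ev s) := by
  haveI : Fact (Nat.Prime 2) := ⟨Nat.prime_two⟩
  refine not_dec_of_center (isPGroup_ev hp) (sng s i₁ z₁ hz₁) ?_
  have hI' : ∀ i : I, ∃ l, l ≠ i := by
    intro i
    rcases hI i with rfl | rfl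
    · exact ⟨i₁, h01.symm⟩
    · exact ⟨i₀, h01⟩
  intro c hc
  have hcc : c.1 i₁ = 1 ∨ c.1 i₁ = z₁ := hZ _ (central_coord ht hI' hc i₁)
  have h0 : s i₀ (c.1 i₀) = s i₁ (c.1 i₁) := by
    have h1 : tot s c.1 = 1 := c.2
    have h2 : tot s c.1 = s i₀ (c.1 i₀) * s i₁ (c.1 i₁) := by
      rw [tot_apply]
      have huniv : (Finset.univ : Finset I) = {i₀, i₁} := by
        ext k
        simp [hI k]
      rw [huniv, Finset.prod_pair h01]
    rw [h2] at h1
    have h3 : s i₀ (c.1 i₀) = (s i₁ (c.1 i₁))⁻¹ := eq_inv_of_mul_eq_one_left h1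
    rw [h3]
    rcases Int.units_eq_one_or (s i₁ (c.1 i₁)) with e | e <;> rw [e] <;> rfl
  have hc0 : c.1 i₀ = 1 := by
    apply hinj
    rw [h0]
    rcases hcc with h | h
    · rw [h, map_one]
    · rw [h, hz₁]
  rcases hcc with h | h
  · left
    apply Subtype.ext
    funext k
    rcases hI k with rfl | rfl
    · exact hc0
    · exact h
  · right
    apply Subtype.ext
    funext k
    rcases hI k with rfl | rfl
    · rw [hc0]
      exact (sng_ne s i₁ _ _ h01).symm
    · simp [h]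

/-- A factor of order two and at least two other nontrivial factors: decomposable. -/
theorem dec_of_three (i₀ i₁ i₂ : I) (h01 : i₀ ≠ i₁) (h02 : i₂ ≠ i₀) (h12 : i₂ ≠ i₁)
    (hinj : ∀ c : W i₀, s i₀ c = 1 → c = 1) (t₀ : W i₀) (ht₀ : s i₀ t₀ = -1)
    (z₁ : W i₁) (hz₁ : s i₁ z₁ = 1) (hz₁1 : z₁ ≠ 1) (z₂ : W i₂) (hz₂ : s i₂ z₂ = 1) (hz₂1 : z₂ ≠ 1) : Dec (Ev s) := by
  have hcomm : ∀ a b : W i₀, a * b = b * a := by
    intro a b
    have h : s i₀ (a * b * (b * a)⁻¹) = 1 := by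
      simp only [map_mul, map_inv]
      rw [mul_comm (s i₀ b), mul_inv_cancel]
    have := hinj _ h
    exact mul_inv_eq_one.1 this
  let S₁ : Subgroup (Ev s) :=
    { carrier := {u | ∀ k, k ≠ i₀ → k ≠ i₁ → u.1 k = 1}
      one_mem' := fun k _ _ => rfl
      mul_mem' := by
        intro a b ha hb k h1 h2
        change a.1 k * b.1 k = 1
        rw [ha k h1 h2, hb k h1 h2, one_mul]
      inv_mem' := by
        intro a ha k h1 h2
        change (a.1 k)⁻¹ = 1
        rw [ha k h1 h2, inv_one] }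
  let S₂ : Subgroup (Ev s) :=
    { carrier := {u | u.1 i₁ = 1}
      one_mem' := rfl
      mul_mem' := by
        intro a b ha hb
        change a.1 i₁ * b.1 i₁ = 1
        rw [ha, hb, one_mul]
      inv_mem' := by
        intro a ha
        change (a.1 i₁)⁻¹ = 1
        rw [ha, inv_one] }
  refine ⟨S₁, S₂, ?_, ?_, ?_, ?_, ?_⟩
  · intro h
    have hm : sng s i₁ z₁ hz₁ ∈ S₁ := fun k _ hk => sng_ne s i₁ _ _ hk
    rw [h, Subgroup.mem_bot] at hm
    have := congrArg (fun u : Ev s => u.1 i₁) hm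
    exact hz₁1 (by simpa using this)
  · intro h
    have hm : sng s i₂ z₂ hz₂ ∈ S₂ := sng_ne s i₂ _ _ (Ne.symm h12)
    rw [h, Subgroup.mem_bot] at hm
    have := congrArg (fun u : Ev s => u.1 i₂) hm
    exact hz₂1 (by simpa using this)
  · intro a ha b hb
    apply Subtype.ext
    funext k
    change a.1 k * b.1 k = b.1 k * a.1 k
    by_cases h0 : k = i₀
    · subst h0
      exact hcomm _ _
    by_cases h1 : k = i₁
    · subst h1
      have : b.1 k = 1 := hb
      rw [this, mul_one, one_mul]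
    · rw [ha k h0 h1, one_mul, mul_one]
  · rw [eq_bot_iff]
    rintro a ⟨ha, hb⟩
    have hb' : a.1 i₁ = 1 := hb
    have hk : ∀ k, k ≠ i₀ → a.1 k = 1 := by
      intro k h0
      by_cases h1 : k = i₁
      · subst h1
        exact hb'
      · exact ha k h0 h1
    have h1 := tot_eq_of_trivial s (x := a.1) i₀ (fun k h => by rw [hk k h, map_one])
    have h2 : tot s a.1 = 1 := a.2
    have h3 : a.1 i₀ = 1 := hinj _ (by rw [← h1, h2])
    rw [Subgroup.mem_bot]
    apply Subtype.ext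
    funext k
    by_cases h0 : k = i₀
    · subst h0
      exact h3
    · exact hk k h0
  · rw [eq_top_iff]
    intro x _
    have hex : ∃ c : W i₀, s i₀ c = s i₁ (x.1 i₁) := by
      rcases Int.units_eq_one_or (s i₁ (x.1 i₁)) with e | e
      · exact ⟨1, by rw [e, map_one]⟩
      · exact ⟨t₀, by rw [e, ht₀]⟩
    obtain ⟨c, hc⟩ := hex
    have hm : Pi.mulSingle i₀ c * Pi.mulSingle i₁ (x.1 i₁) ∈ (tot s).ker := by
      rw [MonoidHom.mem_ker, map_mul, tot_single, tot_single, hc]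
      rcases Int.units_eq_one_or (s i₁ (x.1 i₁)) with e | e <;> rw [e] <;> rfl
    set x' : Ev s := ⟨_, hm⟩ with hx'
    have h1 : x' ∈ S₁ := by
      intro k h0 h1
      simp [hx', Pi.mulSingle_eq_of_ne h0, Pi.mulSingle_eq_of_ne h1]
    have h2 : x'⁻¹ * x ∈ S₂ := by
      change (x'.1 i₁)⁻¹ * x.1 i₁ = 1
      simp [hx', Pi.mulSingle_eq_of_ne h01.symm]
    have : x = x' * (x'⁻¹ * x) := by group
    rw [this]
    exact mul_mem (le_sup_left (a := S₁) h1) (le_sup_right (a := S₁) h2)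

end small

end family

end Cfsg.Agent.Lib.SylAlt.Indec
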