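/-
The iterated wreath product of `C₂`: centre, sign character, second centre.
-/
import Mathlib
import Cfsg.Agent.Lib.SpWreath.AltTower
import Cfsg.Agent.Lib.SylAlt.Indec

set_option autoImplicit false

namespace Cfsg.Agent.Lib.SylAlt.Level

open Subgroup RegularWreathProduct Cfsg.Agent.Lib.SpWreath.Group Cfsg.Agent.Lib.SpWreath.NRank
open Cfsg.Agent.Lib.SpWreath.NPow Cfsg.Agent.Lib.SpWreath.PermTower Cfsg.Agent.Lib.SpWreath.AltTower
open Cfsg.Agent.Lib.SylAlt.Indec
open scoped Nat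

section step

variable {D : Type} [Group D]

lemma cases_wr (x : D ≀ᵣ C2) : (∃ a b, x = bp a b) ∨ ∃ a b, x = bp a b * yy := by
  by_cases h : x.right = 1
  · exact Or.inl ⟨_, _, eq_bp h⟩
  · exact Or.inr ⟨_, _, eq_bp_yy h⟩

lemma bp_inj {a b c d : D} (h : bp a b = bp c d) : a = c ∧ b = d := by
  constructor
  · have := congrArg (fun u : D ≀ᵣ C2 => u.left 1) h
    simpa [bp] using this
  · have := congrArg (fun u : D ≀ᵣ C2 => u.left (Multiplicative.ofAdd 1)) h
    simpa [bp, s_ne] using this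

lemma yy_mul_bp (a b : D) : (yy : D ≀ᵣ C2) * bp a b = bp b a * yy := by
  have := yy_conj a b
  rw [← this]
  group

lemma bp_yy_inv (a b : D) : (bp a b * yy)⁻¹ = bp b⁻¹ a⁻¹ * yy := by
  rw [mul_inv_rev, yy_inv, bp_inv, yy_mul_bp]

lemma conj_bp_yy (a b u v : D) : (bp a b * yy) * bp u v * (bp a b * yy)⁻¹ = bp (a * v * a⁻¹) (b * u * b⁻¹) := by
  rw [bp_yy_inv]
  calc bp a b * yy * bp u v * (bp b⁻¹ a⁻¹ * yy) = bp a b * (yy * bp u v) * (bp b⁻¹ a⁻¹ * yy) := by group
    _ = bp a b * (bp v u * yy) * (bp b⁻¹ a⁻¹ * yy) := by rw [yy_mul_bp]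
    _ = bp a b * bp v u * (yy * bp b⁻¹ a⁻¹) * yy := by group
    _ = bp a b * bp v u * (bp a⁻¹ b⁻¹ * yy) * yy := by rw [yy_mul_bp]
    _ = bp a b * bp v u * bp a⁻¹ b⁻¹ * (yy * yy) := by group
    _ = _ := by rw [yy_mul_yy, mul_one, bp_mul, bp_mul]

lemma comm_yy_cases {x : D ≀ᵣ C2} (h : x * yy = yy * x) : (∃ a, x = bp a a) ∨ ∃ a, x = bp a a * yy := by
  rcases cases_wr x with ⟨a, b, rfl⟩ | ⟨a, b, rfl⟩
  · left
    rw [yy_mul_bp] at h
    have h1 : bp a b = bp b a := mul_right_cancel h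
    obtain rfl := (bp_inj h1).1
    exact ⟨a, rfl⟩
  · right
    have h1 : bp a b * yy = yy * bp a b := by
      have e : bp a b * yy * yy = yy * (bp a b * yy) := h
      exact mul_right_cancel (b := yy) (by rw [e]; group)
    rw [yy_mul_bp] at h1
    have h2 : bp a b = bp b a := mul_right_cancel h1
    obtain rfl := (bp_inj h2).1
    exact ⟨a, rfl⟩

variable {σ : D →* ℤˣ} {τ : D ≀ᵣ C2 →* ℤˣ} {z t : D}

lemma sq_units (u : ℤˣ) : u * u = 1 := by
  rcases Int.units_eq_one_or u with rfl | rfl <;> rfl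

lemma z_sq (hz : z ≠ 1) (hc : ∀ g, z * g = g * z) (hZ : ∀ c, (∀ g, c * g = g * c) → c = 1 ∨ c = z) : z * z = 1 := by
  have : z * z = 1 ∨ z * z = z := hZ _ (fun g => by rw [mul_assoc, hc g, ← mul_assoc, hc g, mul_assoc])
  rcases this with h | h
  · exact h
  · exact absurd (mul_eq_left.1 h) hz

lemma bp_z_central (hc : ∀ g, z * g = g * z) (g : D ≀ᵣ C2) : bp z z * g = g * bp z z := by
  rcases cases_wr g with ⟨a, b, rfl⟩ | ⟨a, b, rfl⟩
  · rw [bp_mul, bp_mul, hc a, hc b]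
  · rw [← mul_assoc, bp_mul, hc a, hc b, mul_assoc, yy_mul_bp, ← mul_assoc, bp_mul]

lemma center_wr (hz : z ≠ 1) (hZ : ∀ c, (∀ g, c * g = g * c) → c = 1 ∨ c = z) (c : D ≀ᵣ C2)
    (hc : ∀ g, c * g = g * c) : c = 1 ∨ c = bp z z := by
  rcases comm_yy_cases (hc yy) with ⟨a, rfl⟩ | ⟨a, rfl⟩
  · have h : ∀ g, a * g = g * a := by
      intro g
      have := hc (bp g 1)
      rw [bp_mul, bp_mul] at this
      exact (bp_inj this).1
    rcases hZ a h with rfl | rfl
    · left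
      exact bp_one
    · right
      rfl
  · exfalso
    apply hz
    have h1 := hc (bp z 1)
    have h2 : (bp a a * yy) * bp z 1 = bp a (a * z) * yy := by
      rw [mul_assoc, yy_mul_bp, ← mul_assoc, bp_mul, mul_one]
    rw [h2, ← mul_assoc, bp_mul] at h1
    have h3 := mul_right_cancel h1
    have h4 := (bp_inj h3).1
    exact (mul_eq_right.1 h4.symm)

lemma cent_wr (hb : ∀ a b, τ (bp a b) = σ a * σ b) (hy : τ yy = 1) (c : D ≀ᵣ C2)
    (hc : ∀ e, τ e = 1 → c * e = e * c) : τ c = 1 := by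
  rcases comm_yy_cases (hc yy hy) with ⟨a, rfl⟩ | ⟨a, rfl⟩
  · rw [hb, sq_units]
  · rw [map_mul, hb, hy, sq_units, one_mul]

/-- The even case. -/
theorem fac_even (hb : ∀ a b, τ (bp a b) = σ a * σ b) (hy : τ yy = 1) (hz : z ≠ 1) (hc : ∀ g, z * g = g * z)
    (hZ : ∀ c, (∀ g, c * g = g * c) → c = 1 ∨ c = z) (ht : σ t = -1) (hσ : σ z = 1) :
    Fac τ (bp z z) (bp t 1) (bp z 1) yy := by
  have hz2 := z_sq hz hc hZ
  have hzi : z⁻¹ = z := inv_eq_of_mul_eq_one_left hz2
  refine ⟨?_, bp_z_central hc, ?_, center_wr hz hZ, ?_, cent_wr hb hy, ?_, ?_, ?_⟩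
  · intro h
    rw [← bp_one] at h
    exact hz (bp_inj h).1
  · rw [hb, sq_units]
  · rw [hb, ht, map_one, mul_one]
  · rw [hb, hσ, map_one, mul_one]
  · intro g
    rcases cases_wr g with ⟨a, b, rfl⟩ | ⟨a, b, rfl⟩
    · left
      rw [bp_inv, bp_inv, bp_mul, bp_mul, bp_mul, hc a]
      simp [bp_one]
    · right
      have e : bp z 1 * (bp a b * yy) * (bp z 1)⁻¹ * (bp a b * yy)⁻¹ =
          bp z 1 * ((bp a b * yy) * (bp z 1)⁻¹ * (bp a b * yy)⁻¹) := by group
      rw [e, bp_inv, conj_bp_yy, bp_mul]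
      simp only [inv_one, mul_one, mul_inv_cancel, one_mul, hzi]
      rw [← hc b, mul_assoc, mul_inv_cancel, mul_one]
  · rw [comm_yy]
    simp [hzi]

/-- The centraliser of the even part in the even case. -/
theorem cent_even (hb : ∀ a b, τ (bp a b) = σ a * σ b) (hy : τ yy = 1) (hz : z ≠ 1)
    (hZ : ∀ c, (∀ g, c * g = g * c) → c = 1 ∨ c = z) (hσ : σ z = 1) (c : D ≀ᵣ C2)
    (hcc : ∀ e, τ e = 1 → c * e = e * c) : c = 1 ∨ c = bp z z := by
  rcases comm_yy_cases (hcc yy hy) with ⟨a, rfl⟩ | ⟨a, rfl⟩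
  · have h : ∀ g, a * g = g * a := by
      intro g
      have := hcc (bp g g) (by rw [hb, sq_units])
      rw [bp_mul, bp_mul] at this
      exact (bp_inj this).1
    rcases hZ a h with rfl | rfl
    · left
      exact bp_one
    · right
      rfl
  · exfalso
    apply hz
    have h1 := hcc (bp z 1) (by rw [hb, hσ, map_one, mul_one])
    have h2 : (bp a a * yy) * bp z 1 = bp a (a * z) * yy := by
      rw [mul_assoc, yy_mul_bp, ← mul_assoc, bp_mul, mul_one]
    rw [h2, ← mul_assoc, bp_mul] at h1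
    have h3 := mul_right_cancel h1
    have h4 := (bp_inj h3).1
    exact (mul_eq_right.1 h4.symm)

/-- The base case `D₈`. -/
theorem fac_base (hb : ∀ a b, τ (bp a b) = σ a * σ b) (hy : τ yy = 1) (hz : z ≠ 1) (hc : ∀ g, z * g = g * z)
    (hZ : ∀ c, (∀ g, c * g = g * c) → c = 1 ∨ c = z) (ht : σ t = -1) (hD : ∀ g : D, g = 1 ∨ g = z) :
    Fac τ (bp z z) (bp t 1) yy (bp z 1) := by
  have hz2 := z_sq hz hc hZ
  have hzi : z⁻¹ = z := inv_eq_of_mul_eq_one_left hz2
  have key : ∀ a b : D, (yy : D ≀ᵣ C2) * bp a b * yy⁻¹ * (bp a b)⁻¹ = 1 ∨ (yy : D ≀ᵣ C2) * bp a b * yy⁻¹ * (bp a b)⁻¹ = bp z z := by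
    intro a b
    rw [yy_conj, bp_inv, bp_mul]
    rcases hD a with rfl | rfl <;> rcases hD b with rfl | rfl
    · left
      simp [bp_one]
    · right
      simp [hzi]
    · right
      simp [hzi]
    · left
      simp [bp_one]
  refine ⟨?_, bp_z_central hc, ?_, center_wr hz hZ, ?_, cent_wr hb hy, hy, ?_, ?_⟩
  · intro h
    rw [← bp_one] at h
    exact hz (bp_inj h).1
  · rw [hb, sq_units]
  · rw [hb, ht, map_one, mul_one]
  · intro g
    rcases cases_wr g with ⟨a, b, rfl⟩ | ⟨a, b, rfl⟩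
    · exact key a b
    · have e : (yy : D ≀ᵣ C2) * (bp a b * yy) * yy⁻¹ * (bp a b * yy)⁻¹ = yy * bp a b * yy⁻¹ * (bp a b)⁻¹ := by
        group
      rw [e]
      exact key a b
  · rw [yy_conj, bp_inv, bp_mul]
    simp [hzi]

end step

lemma C2_comm : ∀ a b : C2, a * b = b * a := by decide
lemma C2_all : ∀ g : C2, g = 1 ∨ g = Multiplicative.ofAdd 1 := by decide

/-- A level of the tower. -/
structure Lvl where
  D : Type
  Λ : Type
  grp : Group D
  fin : Finite D
  ftΛ : Fintype Λ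
  deq : DecidableEq Λ
  ρ : D →* Equiv.Perm Λ

attribute [instance] Lvl.grp Lvl.fin Lvl.ftΛ Lvl.deq

/-- Properties of a level with `2 ^ (a + 1)` points. -/
structure Good (a : ℕ) (L : Lvl) : Prop where
  inj : Function.Injective L.ρ
  cardΛ : Nat.card L.Λ = 2 ^ (a + 1)
  cardD : Nat.card L.D = 2 ^ padicValNat 2 (2 ^ (a + 1))!
  rest : ∃ z t : L.D, z ≠ 1 ∧ (∀ g, z * g = g * z) ∧ (∀ c, (∀ g, c * g = g * c) → c = 1 ∨ c = z) ∧
    signHom L.ρ t = -1 ∧ (a = 0 → ∀ g, g = 1 ∨ g = z) ∧ (a = 0 → ∀ c, signHom L.ρ c = 1 → c = 1) ∧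
    (1 ≤ a → signHom L.ρ z = 1) ∧ (1 ≤ a → ∃ y w, Fac (signHom L.ρ) z t y w) ∧
    (a = 1 → ∃ y : L.D, y ≠ 1 ∧ y ≠ z ∧ y * y = 1 ∧ z * z = 1 ∧ signHom L.ρ y = 1) ∧
    (2 ≤ a → ∀ c, (∀ e, signHom L.ρ e = 1 → c * e = e * c) → c = 1 ∨ c = z)

theorem exists_good (a : ℕ) : ∃ L : Lvl, Good a L := by
  classical
  haveI : Fact (Nat.Prime 2) := ⟨Nat.prime_two⟩
  induction a with
  | zero =>
    refine ⟨⟨C2, C2, inferInstance, inferInstance, inferInstance, inferInstance, MulAction.toPermHom C2 C2⟩, ?_⟩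
    refine ⟨MulAction.toPerm_injective, ?_, ?_, ?_⟩
    · change Nat.card C2 = _
      rw [card_C2]
      rfl
    · change Nat.card C2 = _
      rw [card_C2]
      simp [Nat.factorial]
    · have hsg : signHom (MulAction.toPermHom C2 C2) (Multiplicative.ofAdd (1 : ZMod 2) : C2) = -1 := sign_s
      refine ⟨(Multiplicative.ofAdd (1 : ZMod 2) : C2), (Multiplicative.ofAdd (1 : ZMod 2) : C2), s_ne, fun g => C2_comm _ _, fun c _ => C2_all c, hsg,
        fun _ g => C2_all g, ?_, fun h => by omega, fun h => by omega, fun h => by omega, fun h => by omega⟩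
      intro _ c hc
      rcases C2_all c with h | h
      · exact h
      · rw [h] at hc
        have hc' : signHom (MulAction.toPermHom C2 C2) (Multiplicative.ofAdd (1 : ZMod 2) : C2) = 1 := hc
        rw [hsg] at hc'
        exact absurd hc' (by decide)
  | succ a ih =>
    obtain ⟨L, hL⟩ := ih
    obtain ⟨z, t, hz, hc, hZ, ht, h0, h0', h1, -, -, -⟩ := hL.rest
    haveI : Nonempty L.Λ := by
      apply (Nat.card_pos_iff.1 _).1
      rw [hL.cardΛ]
      positivity
    have hev : Even (Fintype.card L.Λ) := by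
      rw [← Nat.card_eq_fintype_card, hL.cardΛ]
      exact ⟨2 ^ a, by rw [pow_succ]; ring⟩
    have hb := sign_bp L.ρ
    have hy := sign_yy L.ρ hev
    refine ⟨⟨L.D ≀ᵣ C2, L.Λ × C2, inferInstance, inferInstance, inferInstance, inferInstance, wreathPerm L.ρ⟩, ?_⟩
    refine ⟨wreathPerm_injective L.ρ hL.inj, ?_, ?_, ?_⟩
    · change Nat.card (L.Λ × C2) = _
      rw [Nat.card_prod, hL.cardΛ, card_C2, pow_succ 2 (a + 1)]
    · change Nat.card (L.D ≀ᵣ C2) = _
      rw [RegularWreathProduct.card, hL.cardD, card_C2, ← level_val 2 (a + 1), ← pow_mul, mul_comm (padicValNat _ _), pow_succ 2 (2 * _)]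
    · have hzne : (bp z z : L.D ≀ᵣ C2) ≠ 1 := by
        intro h
        rw [← bp_one] at h
        exact hz (bp_inj h).1
      refine ⟨bp z z, bp t 1, hzne, bp_z_central hc, center_wr hz hZ, ?_, fun h => by omega, fun h => by omega, ?_, ?_, ?_, ?_⟩
      · change signHom (wreathPerm L.ρ) (bp t 1) = -1
        rw [hb, ht, map_one, mul_one]
      · intro _
        change signHom (wreathPerm L.ρ) (bp z z) = 1
        rw [hb, sq_units]
      · intro _
        rcases Nat.eq_zero_or_pos a with rfl | hpos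
        · exact ⟨yy, bp z 1, fac_base hb hy hz hc hZ ht (h0 rfl)⟩
        · exact ⟨bp z 1, yy, fac_even hb hy hz hc hZ ht (h1 hpos)⟩
      · intro ha
        have ha0 : a = 0 := by omega
        subst ha0
        have hF := fac_base hb hy hz hc hZ ht (h0 rfl)
        have hz2 := z_sq hz hc hZ
        refine ⟨yy, ?_, ?_, yy_mul_yy, ?_, hy⟩
        · intro h
          have := hF.y_w
          rw [h] at this
          have e : (1 : L.D ≀ᵣ C2) * bp z 1 * 1⁻¹ * (bp z 1)⁻¹ = 1 := by group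
          rw [e] at this
          exact hzne this.symm
        · intro h
          have := hF.y_w
          rw [h] at this
          have e : (bp z z : L.D ≀ᵣ C2) * bp z 1 * (bp z z)⁻¹ * (bp z 1)⁻¹ = 1 := by
            rw [hF.z_central (bp z 1)]
            group
          rw [e] at this
          exact hzne this.symm
        · rw [bp_mul, hz2, bp_one]
      · intro ha c hcc
        exact cent_even hb hy hz hZ (h1 (by omega)) c hcc

end Cfsg.Agent.Lib.SylAlt.Level
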