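/-
The permutation representation of a product of levels of the tower, binary expansion,
identification of the even part with a Sylow 2-subgroup of the alternating group.
-/
import Mathlib
import Cfsg.Agent.Lib.SylAlt.Level

set_option autoImplicit false

namespace Cfsg.Agent.Lib.SylAlt.Family

open Subgroup Cfsg.Agent.Lib.SpWreath.PermTower Cfsg.Agent.Lib.SpWreath.AltTower
open Cfsg.Agent.Lib.SylAlt.Indec Cfsg.Agent.Lib.SylAlt.Level
open scoped Nat

/-- Binary expansion. -/
theorem bits (n : ℕ) : ∃ A : Finset ℕ, (∑ a ∈ A, 2 ^ (a + 1)) + n % 2 = n ∧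
    ∑ a ∈ A, padicValNat 2 (2 ^ (a + 1))! = padicValNat 2 n ! := by
  haveI : Fact (Nat.Prime 2) := ⟨Nat.prime_two⟩
  induction n using Nat.strong_induction_on with
  | _ n ih =>
    by_cases hn : n ≤ 1
    · refine ⟨∅, ?_, ?_⟩
      · interval_cases n <;> simp
      · interval_cases n <;> simp
    · have hl : 1 ≤ Nat.log 2 n := Nat.le_log_of_pow_le (by norm_num) (by simpa using (by omega : 2 ≤ n))
      obtain ⟨a, ha⟩ : ∃ a, Nat.log 2 n = a + 1 := ⟨Nat.log 2 n - 1, by omega⟩
      have h1 : 2 ^ (a + 1) ≤ n := by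
        rw [← ha]
        exact Nat.pow_log_le_self 2 (by omega)
      have h2 : n < 2 ^ (a + 1 + 1) := by
        rw [← ha]
        exact Nat.lt_pow_succ_log_self (by norm_num) n
      obtain ⟨m, rfl⟩ : ∃ m, n = 2 ^ (a + 1) + m := ⟨n - 2 ^ (a + 1), by omega⟩
      have hpos : 0 < 2 ^ (a + 1) := by positivity
      have hmn : m < 2 ^ (a + 1) + m := by omega
      obtain ⟨A, hA1, hA2⟩ := ih m hmn
      have hlt : m < 2 ^ (a + 1) := by
        rw [pow_succ 2 (a + 1)] at h2
        omega
      have hnot : a ∉ A := by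
        intro h
        have : 2 ^ (a + 1) ≤ ∑ b ∈ A, 2 ^ (b + 1) :=
          Finset.single_le_sum (f := fun b => 2 ^ (b + 1)) (fun _ _ => Nat.zero_le _) h
        omega
      refine ⟨insert a A, ?_, ?_⟩
      · rw [Finset.sum_insert hnot]
        have : (2 ^ (a + 1) + m) % 2 = m % 2 := by
          rw [pow_succ]
          omega
        rw [this]
        omega
      · rw [Finset.sum_insert hnot, hA2, legendre_split_p 2 (a + 1) m h2]

section sign

variable {α : Type} [Fintype α] [DecidableEq α] {β : α → Type} [∀ a, Fintype (β a)] [∀ a, DecidableEq (β a)]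

lemma sign_sigma_single (i : α) (σ : Equiv.Perm (β i)) :
    Equiv.Perm.sign (Equiv.Perm.sigmaCongrRightHom β (Pi.mulSingle i σ)) = Equiv.Perm.sign σ := by
  induction σ using Equiv.Perm.swap_induction_on with
  | one => simp
  | swap_mul f x y hxy ih =>
    rw [Pi.mulSingle_mul, map_mul, map_mul, map_mul, ih, Equiv.Perm.sign_swap hxy]
    congr 1
    have hap : ∀ (F : ∀ a, Equiv.Perm (β a)) (j : α) (v : β j),
        Equiv.Perm.sigmaCongrRightHom β F ⟨j, v⟩ = ⟨j, F j v⟩ := fun _ _ _ => rfl
    have : Equiv.Perm.sigmaCongrRightHom β (Pi.mulSingle i (Equiv.swap x y)) =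
        Equiv.swap (⟨i, x⟩ : Σ a, β a) ⟨i, y⟩ := by
      ext ⟨j, v⟩ : 1
      rw [hap]
      by_cases hj : j = i
      · subst hj
        by_cases h1 : v = x
        · subst h1
          simp
        · by_cases h2 : v = y
          · subst h2
            simp
          · have h3 : (⟨j, v⟩ : Σ a, β a) ≠ ⟨j, x⟩ := fun h => h1 (by simpa using h)
            have h4 : (⟨j, v⟩ : Σ a, β a) ≠ ⟨j, y⟩ := fun h => h2 (by simpa using h)
            rw [Equiv.swap_apply_of_ne_of_ne h3 h4]
            simp [Equiv.swap_apply_of_ne_of_ne h1 h2]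
      · have h3 : (⟨j, v⟩ : Σ a, β a) ≠ ⟨i, x⟩ := fun h => hj (congrArg Sigma.fst h)
        have h4 : (⟨j, v⟩ : Σ a, β a) ≠ ⟨i, y⟩ := fun h => hj (congrArg Sigma.fst h)
        rw [Equiv.swap_apply_of_ne_of_ne h3 h4]
        simp [Pi.mulSingle_eq_of_ne hj]
    rw [this, Equiv.Perm.sign_swap]
    intro h
    apply hxy
    simpa using h

end sign

section prodhom

variable {I : Type} [Fintype I] [DecidableEq I] {W : I → Type} [∀ i, Group (W i)]

/-- A homomorphism to `ℤˣ` from a product is determined by the coordinates. -/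
lemma hom_eq_prod (F : (∀ i, W i) →* ℤˣ) (x : ∀ i, W i) : F x = ∏ i, F (Pi.mulSingle i (x i)) := by
  classical
  have key : ∀ T : Finset I, F (fun k => if k ∈ T then x k else 1) = ∏ i ∈ T, F (Pi.mulSingle i (x i)) := by
    intro T
    induction T using Finset.induction_on with
    | empty =>
      simp only [Finset.notMem_empty, if_false, Finset.prod_empty]
      exact F.map_one
    | insert a T ha ih =>
      rw [Finset.prod_insert ha, ← ih, ← map_mul]
      congr 1
      funext k
      by_cases hk : k = a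
      · subst hk
        simp [ha]
      · simp [hk]
  have := key Finset.univ
  simpa using this

end prodhom

/-- The levels. -/
noncomputable def lv (a : ℕ) : Lvl := Classical.choose (exists_good a)

lemma lv_good (a : ℕ) : Good a (lv a) := Classical.choose_spec (exists_good a)

section rep

variable (A : Finset ℕ) (n : ℕ)

/-- The coordinate groups. -/
abbrev WW (i : ↥A) : Type := (lv i.1).D

/-- The sign on a coordinate. -/
noncomputable abbrev ss (i : ↥A) : WW A i →* ℤˣ := signHom (lv i.1).ρ

/-- The permutation domain. -/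
abbrev LL : Type := (Σ i : ↥A, (lv i.1).Λ) ⊕ Fin (n % 2)

/-- The permutation representation. -/
noncomputable def rr : (∀ i, WW A i) →* Equiv.Perm (LL A n) :=
  (Equiv.Perm.sumCongrHom _ _).comp
    (MonoidHom.prod ((Equiv.Perm.sigmaCongrRightHom (fun i : ↥A => (lv i.1).Λ)).comp
      (MonoidHom.pi fun i => (lv i.1).ρ.comp (Pi.evalMonoidHom _ i))) 1)

lemma rr_injective : Function.Injective (rr A n) := by
  intro x y h
  have h1 := Equiv.Perm.sumCongrHom_injective h
  have h2 := congrArg Prod.fst h1
  have h3 := Equiv.Perm.sigmaCongrRightHom_injective h2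
  funext i
  exact (lv_good i.1).inj (congrFun h3 i)

lemma signHom_rr : signHom (rr A n) = tot (ss A) := by
  apply MonoidHom.ext
  intro x
  rw [hom_eq_prod (signHom (rr A n)) x, tot_apply]
  refine Finset.prod_congr rfl fun i _ => ?_
  change Equiv.Perm.sign (rr A n (Pi.mulSingle i (x i))) = Equiv.Perm.sign ((lv i.1).ρ (x i))
  have : rr A n (Pi.mulSingle i (x i)) = Equiv.Perm.sumCongr
      (Equiv.Perm.sigmaCongrRightHom (fun i : ↥A => (lv i.1).Λ) (Pi.mulSingle i ((lv i.1).ρ (x i)))) 1 := by
    have e : (MonoidHom.pi fun i => (lv i.1).ρ.comp (Pi.evalMonoidHom (fun i : ↥A => (lv i.1).D) i)) (Pi.mulSingle i (x i)) =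
        Pi.mulSingle i ((lv i.1).ρ (x i)) := by
      funext k
      by_cases hk : k = i
      · subst hk
        simp
      · simp [Pi.mulSingle_eq_of_ne hk]
    change Equiv.Perm.sumCongr (Equiv.Perm.sigmaCongrRightHom _ _) 1 = _
    rw [e]
  rw [this, Equiv.Perm.sign_sumCongr, sign_sigma_single]
  simp

lemma card_LL (h : (∑ a ∈ A, 2 ^ (a + 1)) + n % 2 = n) : Nat.card (LL A n) = n := by
  rw [Nat.card_sum, Nat.card_sigma, Nat.card_eq_fintype_card (α := Fin (n % 2)), Fintype.card_fin]
  have : ∑ i : ↥A, Nat.card (lv i.1).Λ = ∑ a ∈ A, 2 ^ (a + 1) := by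
    rw [← Finset.sum_coe_sort A]
    exact Finset.sum_congr rfl fun i _ => (lv_good i.1).cardΛ
  rw [this, h]

lemma card_WW (h : ∑ a ∈ A, padicValNat 2 (2 ^ (a + 1))! = padicValNat 2 n !) :
    Nat.card (∀ i, WW A i) = 2 ^ padicValNat 2 n ! := by
  rw [Nat.card_pi, ← h, ← Finset.prod_pow_eq_pow_sum, ← Finset.prod_coe_sort A]
  exact Finset.prod_congr rfl fun i _ => (lv_good i.1).cardD

end rep

/-- The even part of a permutation representation of maximal 2-power order is a Sylow subgroup of the alternating group. -/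
theorem equiv_sylow {D Λ : Type} [Group D] [Finite D] [Fintype Λ] [DecidableEq Λ] (ρ : D →* Equiv.Perm Λ)
    (hρ : Function.Injective ρ) (n : ℕ) (hΛ : Nat.card Λ = n) (hc : Nat.card D = 2 ^ padicValNat 2 n !)
    (hn2 : 2 ≤ n) (t : D) (ht : signHom ρ t = -1) (Q : Sylow 2 (alternatingGroup (Fin n))) :
    Nonempty ((signHom ρ).ker ≃* (Q : Subgroup (alternatingGroup (Fin n)))) := by
  classical
  haveI : Fact (Nat.Prime 2) := ⟨Nat.prime_two⟩
  haveI : Nontrivial (Fin n) := Fin.nontrivial_iff_two_le.2 hn2
  let ε : Λ ≃ Fin n := Finite.equivFinOfCardEq hΛ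
  let M := (signHom ρ).ker
  let g : M →* alternatingGroup (Fin n) :=
    MonoidHom.codRestrict ((ε.permCongrHom.toMonoidHom.comp ρ).comp M.subtype) (alternatingGroup (Fin n)) (by
      intro d
      rw [Equiv.Perm.mem_alternatingGroup]
      have h1 : Equiv.Perm.sign (ρ (d : D)) = 1 := d.2
      change Equiv.Perm.sign (ε.permCongr (ρ (d : D))) = 1
      rw [Equiv.Perm.sign_permCongr, h1])
  have hg : Function.Injective g := by
    intro a b hab
    have h1 : ε.permCongr (ρ (a : D)) = ε.permCongr (ρ (b : D)) := congrArg Subtype.val hab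
    exact Subtype.ext (hρ (ε.permCongr.injective h1))
  have hrange : Nat.card (signHom ρ).range = 2 := by
    have : (signHom ρ).range = ⊤ := by
      rw [eq_top_iff]
      intro u _
      rcases Int.units_eq_one_or u with rfl | rfl
      · exact one_mem _
      · exact ⟨t, ht⟩
    rw [this, Subgroup.card_top, Nat.card_eq_fintype_card, Fintype.card_units_int]
  have hM : Nat.card D = Nat.card M * 2 := by
    rw [← hrange, ← Subgroup.index_ker, Subgroup.card_mul_index]
  have hA := two_mul_card_alternatingGroup (α := Fin n)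
  have hcardM : Nat.card M = 2 ^ (Nat.card (alternatingGroup (Fin n))).factorization 2 := by
    have h1 : padicValNat 2 n ! = (Nat.card (alternatingGroup (Fin n))).factorization 2 + 1 := by
      rw [Fintype.card_perm, Fintype.card_fin] at hA
      rw [← hA, padicValNat.mul (by norm_num) Fintype.card_ne_zero, padicValNat.self (by norm_num),
        Nat.factorization_def _ Nat.prime_two, Nat.card_eq_fintype_card, add_comm]
    rw [h1, pow_succ] at hc
    omega
  have hcard' : Nat.card g.range = 2 ^ (Nat.card (alternatingGroup (Fin n))).factorization 2 := by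
    rw [Nat.card_congr (MonoidHom.ofInjective hg).symm.toEquiv, hcardM]
  let S : Sylow 2 (alternatingGroup (Fin n)) := Sylow.ofCard g.range hcard'
  have e₁ : M ≃* g.range := MonoidHom.ofInjective hg
  have e₂ : (S : Subgroup (alternatingGroup (Fin n))) ≃* Q := S.equiv Q
  exact ⟨e₁.trans e₂⟩

end Cfsg.Agent.Lib.SylAlt.Family
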